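import Cfsg.Agent.H27.GT6

/-!
Twisted groups of relative rank two: Gauss decomposition for a maximal parabolic subgroup, and squares of classes.
-/

namespace H20.TF

open H14 H14.RootSys H14.PreSt H14.St H27.GT

variable {ι κ : Type*} [Fintype κ] [DecidableEq κ] [Fintype ι] [DecidableEq ι] {R : RootSys ι κ}
  {C : Chev R} {K G : Type*} [Field K] [Group G] {S : St C K G} {T : S.Tw}

variable (T) in
/-- the rank one subgroup of an orbit -/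
def MM (i : κ) : Subgroup G := T.Up (T.orb i) ⊔ T.Um (T.orb i)

variable (T) in
/-- torus elements inverted by the relative reflection -/
def Inv (i : κ) (k : G) : Prop :=
  k ∈ S.H ⊓ T.fix ∧ ∀ s, (s, R.w0 (T.orb i)) ∈ S.NW → s * k * s⁻¹ = k⁻¹

theorem MM_fix {i : κ} : MM T i ≤ T.fix := sup_le inf_le_right inf_le_right

theorem MM_lev {i : κ} : MM T i ≤ Lev S (T.orb i) :=
  sup_le (fun _ h => Subgroup.mem_sup_right (U_mono (fun _ h => h.2) h.1))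
    fun _ h => Subgroup.mem_sup_right (U_mono (fun _ h => h.2) h.1)

theorem conj_MM {i : κ} {n : G} (h1 : ∀ u ∈ T.Up (T.orb i), n * u * n⁻¹ ∈ MM T i)
    (h2 : ∀ u ∈ T.Um (T.orb i), n * u * n⁻¹ ∈ MM T i) {m : G} (hm : m ∈ MM T i) : n * m * n⁻¹ ∈ MM T i :=
  (sup_le h1 h2 : MM T i ≤ (MM T i).comap (MulAut.conj n).toMonoidHom) hm

theorem H_Up {J : Set κ} {k u : G} (hk : k ∈ S.H ⊓ T.fix) (hu : u ∈ T.Up J) : k * u * k⁻¹ ∈ T.Up J :=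
  Subgroup.mem_inf.2 ⟨H_conj_mem_U hk.1 hu.1, mul_mem (mul_mem hk.2 hu.2) (inv_mem hk.2)⟩

theorem H_Um {J : Set κ} {k u : G} (hk : k ∈ S.H ⊓ T.fix) (hu : u ∈ T.Um J) : k * u * k⁻¹ ∈ T.Um J :=
  Subgroup.mem_inf.2 ⟨H_conj_mem_U hk.1 hu.1, mul_mem (mul_mem hk.2 hu.2) (inv_mem hk.2)⟩

theorem H_MM {i : κ} {k m : G} (hk : k ∈ S.H ⊓ T.fix) (hm : m ∈ MM T i) : k * m * k⁻¹ ∈ MM T i :=
  conj_MM (fun _ h => Subgroup.mem_sup_left (H_Up hk h)) (fun _ h => Subgroup.mem_sup_right (H_Um hk h)) hm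

theorem exists_s (hE : T.Ex) (i : κ) : ∃ s ∈ MM T i, (s, R.w0 (T.orb i)) ∈ S.NW := by
  obtain ⟨v, hv, h1⟩ := hE i
  obtain ⟨u', hu', s, -, hs', u, hu, e⟩ := Tw.exists_n hv h1
  refine ⟨s, ?_, hs'⟩
  rw [show s = u'⁻¹ * v * u⁻¹ by rw [e]; group]
  exact mul_mem (mul_mem (inv_mem (Subgroup.mem_sup_left hu')) (Subgroup.mem_sup_right hv))
    (inv_mem (Subgroup.mem_sup_left hu))

theorem Inv.sq_mem (hE : T.Ex) {i : κ} {k : G} (h : Inv T i k) : k * k ∈ MM T i := by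
  obtain ⟨s, hs, hs'⟩ := exists_s hE i
  have := mul_mem (H_MM h.1 hs) (inv_mem hs)
  rwa [show k * s * k⁻¹ * s⁻¹ = k * (s * k * s⁻¹)⁻¹ by group, h.2 s hs', inv_inv] at this

theorem inv_tor (hh : S.HMul) (hZ : Subgroup.center G = ⊥) {i : κ}
    (hw : ∀ j ∈ T.orb i, R.w0 (T.orb i) (R.simple j) = R.neg (R.simple j)) {c : κ → Kˣ}
    (hc : ∀ j, j ∉ T.orb i → c j = 1) (hf : hh.tor c ∈ T.fix) : Inv T i (hh.tor c) := by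
  refine ⟨⟨hh.range_tor.le ⟨c, rfl⟩, hf⟩, fun s hs => ?_⟩
  have a1 : ∀ c, Acts S (hh.tor c) fun r => ((∏ j, c j ^ R.wt r j : Kˣ) : K) := fun c r t => hh.tor_mul_x c r t
  rw [← map_inv]
  refine ((a1 c).conj_NW hs).eq T.top hZ (a1 c⁻¹) fun r => congrArg Units.val (Finset.prod_congr rfl fun j _ => ?_)
  by_cases hj : j ∈ T.orb i
  · rw [w0_inv, ← pair_simple_left, ← Aut.pair_eq (R.w0_mem_Aut (T.orb i)), w0_w0, hw j hj, pair_neg_left,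
      pair_simple_left, Pi.inv_apply, inv_zpow, zpow_neg]
  · simp [hc j hj]

variable (T) in
/-- Gauss decomposition -/
def Dec (i : κ) (n m : G) : Prop := ∃ k ∈ Rp S (T.orb i) ⊓ T.fix,
  ∃ v ∈ Rm S (T.orb i) ⊓ T.fix, ∃ u ∈ Rp S (T.orb i) ⊓ T.fix, k * n = v * m * u

theorem cjp {J : Set κ} {l u : G} (hl : l ∈ Lev S J) (hl' : l ∈ T.fix) (hu : u ∈ Rp S J ⊓ T.fix) :
    l * u * l⁻¹ ∈ Rp S J ⊓ T.fix :=
  ⟨Lev.conj_Rp hl hu.1, Subgroup.mul_mem _ (Subgroup.mul_mem _ hl' hu.2) (Subgroup.inv_mem _ hl')⟩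

theorem cjm {J : Set κ} {l u : G} (hl : l ∈ Lev S J) (hl' : l ∈ T.fix) (hu : u ∈ Rm S J ⊓ T.fix) :
    l * u * l⁻¹ ∈ Rm S J ⊓ T.fix :=
  ⟨Lev.conj_Rm hl hu.1, Subgroup.mul_mem _ (Subgroup.mul_mem _ hl' hu.2) (Subgroup.inv_mem _ hl')⟩

theorem Dec.mul {i : κ} {n m l : G} (h : Dec T i n m) (hl : l ∈ MM T i) : Dec T i (n * l) (m * l) := by
  obtain ⟨k, hk, v, hv, u, hu, e⟩ := h
  exact ⟨k, hk, v, hv, _, cjp (inv_mem (MM_lev hl)) (inv_mem (MM_fix hl)) hu, by rw [← mul_assoc, e]; group⟩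

theorem Dec.conj {i : κ} {n m m1 k1 : G} (h : Dec T i n m) (h1 : m1 ∈ MM T i) (h2 : k1 ∈ Rp S (T.orb i) ⊓ T.fix) :
    ∃ y ∈ T.fix, ∃ v ∈ Rm S (T.orb i) ⊓ T.fix, ∃ u ∈ Rp S (T.orb i) ⊓ T.fix,
      y * (m1 * k1 * n) * y⁻¹ = v * (m1 * m) * u := by
  obtain ⟨k, hk, v, hv, u, hu, e⟩ := h
  have h4 := cjp (MM_lev h1) (MM_fix h1) (mul_mem h2 (inv_mem hk))
  refine ⟨_, Subgroup.inv_mem _ h4.2, _, cjm (MM_lev h1) (MM_fix h1) hv, _, mul_mem hu h4, ?_⟩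
  calc _ = m1 * (k * n) * (m1 * (k1 * k⁻¹) * m1⁻¹) := by group
    _ = _ := by rw [e]; group

theorem dec1 (hE : T.Ex) {i j : κ}
    (hH : ∀ k ∈ S.H ⊓ T.fix, ∃ a b, Inv T i a ∧ Inv T j b ∧ k = a * a * (b * b))
    {n : G} {w : Equiv.Perm ι} (hn : (n, w) ∈ S.NW) (hn' : n ∈ T.fix) (hw : ¬ R.pos (w (R.simple i))) :
    ∃ m ∈ MM T j, Dec T j n m := by
  have hw1 := Tw.NW_W1 hn hn'
  have h1 := pos_mul_w0 (Tw.W1_Aut hw1) (Tw.neg_orb hw1 hw)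
  obtain ⟨n1, hn1, hn2, hQ⟩ := exists_Q hE (mul_mem hw1 (T.w0_orb_mem i))
  obtain ⟨v, hv, h0⟩ := hE i
  obtain ⟨u', hu', s, hs, hs', u, hu, e0⟩ := Tw.exists_n hv h0
  have h2 : (n1 * s, w) ∈ S.NW := by
    have := NW.mul hn2 hs'
    rwa [mul_assoc w, w0_mul_self, mul_one] at this
  obtain ⟨a, b, ha, hb, e⟩ := hH _ ⟨NW.inv_mul_mem_H h2 hn,
    Subgroup.mul_mem _ (Subgroup.inv_mem _ (Subgroup.mul_mem _ hn1 hs)) hn'⟩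
  have e1 : n = n1 * (a⁻¹ * s * a⁻¹⁻¹) * (b * b) := by
    rw [← ha.2 s hs']
    calc n = n1 * s * ((n1 * s)⁻¹ * n) := by group
      _ = n1 * (s * a * s⁻¹ * s * a) * (b * b) := by rw [e]; group
      _ = _ := by rw [ha.2 s hs', inv_inv]
  have ha' := inv_mem ha.1
  have h3 : (a⁻¹ * s * a⁻¹⁻¹, R.w0 (T.orb i)) ∈ S.NW := by
    simpa using NW.mul (NW.mul (mem_NW_of_H ha'.1) hs') (mem_NW_of_H ha.1.1)
  have h4 : Q T (n1 * (a⁻¹ * s * a⁻¹⁻¹)) := hQ.step hn2 hn1 h1 (H_Um ha' hv) (H_Up ha' hu') h3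
    (mul_mem (mul_mem ha'.2 hs) (inv_mem ha'.2)) (H_Up ha' hu) (by rw [e0]; group)
  obtain ⟨k, hk, v, hv, m, hm, u, hu, e2⟩ := h4.parab (J := T.orb j) (fun _ => Tw.π_mem_orb) (M := MM T j)
    le_sup_left le_sup_right
  have h5 := hb.sq_mem hE
  exact ⟨_, mul_mem hm h5, e1 ▸ Dec.mul ⟨k, hk, v, hv, u, hu, e2⟩ h5⟩

theorem eq_one_of {i j : κ} (hc : ∀ l, l ∈ T.orb i ∨ l ∈ T.orb j) {w : Equiv.Perm ι} (hw : w ∈ T.W1)
    (h1 : R.pos (w (R.simple i))) (h2 : R.pos (w (R.simple j))) : w = 1 :=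
  R.eq_one_of_pos_simple (Tw.mem_W1.1 hw).1 fun l => (hc l).elim (Tw.pos_orb hw h1 l) (Tw.pos_orb hw h2 l)

theorem bruhat_P (hE : T.Ex) {j : κ} {g : G} (hg : g ∈ T.fix) (hP : g ∉ S.P (T.orb j)) :
    ∃ n ∈ T.fix, ∃ w, (n, w) ∈ S.NW ∧ R.pos (w (R.simple j)) ∧ w ≠ 1 ∧ ∃ m ∈ MM T j,
      ∃ k ∈ Rp S (T.orb j) ⊓ T.fix, ∃ y ∈ T.fix, y * g * y⁻¹ = m * k * n := by
  obtain ⟨w, hw⟩ := exists_cell (T.mem_top g)
  obtain ⟨u', hu', n, hn, hn', u, hu, e⟩ := Tw.bruhat hw hg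
  obtain ⟨a, ha, k, hk, e1⟩ := split_pos (J := T.orb j) (fun _ => Tw.π_mem_orb)
    (mul_mem (show u ∈ _ ⊓ _ from ⟨U_mono (fun _ h => h.1) hu.1, hu.2⟩) hu')
  by_cases h : R.pos (w (R.simple j))
  · refine ⟨n, hn, w, hn', h, ?_, a, Subgroup.mem_sup_left ha, k, hk, u, hu.2, by rw [e, ← e1]; group⟩
    rintro rfl
    exact hP (mem_P_iff.2 ⟨1, one_mem _, hw⟩)
  · obtain ⟨s, hb, hs⟩ := exists_s hE j
    have hbf := MM_fix hb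
    have hw1 := Tw.NW_W1 hn' hn
    refine ⟨n * s⁻¹, mul_mem hn (inv_mem hbf), _, NW.mul hn' (NW.inv hs), ?_, ?_,
      _, mul_mem hb (Subgroup.mem_sup_left ha), k, hk, s * u, Subgroup.mul_mem _ hbf hu.2, ?_⟩
    · rw [w0_inv]; exact pos_mul_w0 (Tw.W1_Aut hw1) (Tw.neg_orb hw1 h) j (T.mem_orb j)
    · intro h1
      rw [mul_inv_eq_one] at h1
      exact hP (mem_P_iff.2 ⟨w, h1 ▸ R.w0_mem _, hw⟩)
    · rw [e, mul_assoc _ a, ← e1]; group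

theorem not_P (hE : T.Ex) (hc : R.Conn) (hS : T.Supp) (hh : S.HMul) (hZ : Subgroup.center G = ⊥) {i j : κ}
    (hij : i ∉ T.orb j) {g : G} (hg : g ∈ T.fix) (h1 : g ≠ 1) : ∃ y ∈ T.fix, y * g * y⁻¹ ∉ S.P (T.orb j) := by
  by_contra h
  push Not at h
  have hE' : T.Emb T.fix.subtype := ⟨Subtype.val_injective, Subgroup.range_subtype _, hE⟩
  rcases hE'.normal_cases hc hS hh hZ ((S.P (T.orb j)).comap T.fix.subtype).normalCore with h2 | h2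
  · have : (⟨g, hg⟩ : T.fix) ∈ ((S.P (T.orb j)).comap T.fix.subtype).normalCore := fun y => h y y.2
    rw [h2, Subgroup.mem_bot] at this
    exact h1 (congrArg Subtype.val this)
  · have h4 : (S.P (T.orb j)).comap T.fix.subtype = ⊤ :=
      top_le_iff.1 (h2 ▸ sup_le (Subgroup.comap_mono (B_le_P _)) (Subgroup.normalCore_le _))
    obtain ⟨s, hb, hs⟩ := exists_s hE i
    have h5 : (⟨_, MM_fix hb⟩ : T.fix) ∈ (S.P (T.orb j)).comap T.fix.subtype := h4 ▸ Subgroup.mem_top _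
    obtain ⟨w, hw, h6⟩ := mem_P_iff.1 h5
    obtain rfl := h6.unique T.sep (cell_of_NW hs)
    exact R.w0_neg (R.inJ_simple.2 (T.mem_orb i)) (R.pos_simple i)
      ((R.pos_WJ_iff hw (by rwa [R.inJ_simple])).2 (R.pos_simple i))

theorem main [Finite G] (hE : T.Ex) (hc : R.Conn) (hS : T.Supp) (hh : S.HMul) (hZ : Subgroup.center G = ⊥) {i j : κ}
    (hij : i ∉ T.orb j) (hcv : ∀ l, l ∈ T.orb i ∨ l ∈ T.orb j)
    (hH : ∀ k ∈ S.H ⊓ T.fix, ∃ a b, Inv T i a ∧ Inv T j b ∧ k = a * a * (b * b))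
    {a z n0 : G} {d : ℕ} (hz : z ∈ S.H ⊓ T.fix) (hzM : ∀ m ∈ MM T j, Commute z m) (hn0 : n0 ∈ T.fix)
    (hn1 : n0 * z * n0⁻¹ = z⁻¹) (ha : a ∈ MM T j) (had : a ^ d = 1)
    (hp : ∀ u ∈ Rp S (T.orb j), z ^ d * u = u * z ^ d → u = 1)
    (hm : ∀ u ∈ Rm S (T.orb j), z ^ d * u = u * z ^ d → u = 1)
    (hn2 : ∃ y ∈ MM T j, n0 * a * n0⁻¹ = y * a * y⁻¹)
    (hsq : ∀ m ∈ MM T j, ∃ y ∈ MM T j, ∃ y' ∈ MM T j, m = y * a * y⁻¹ * (y' * a * y'⁻¹)) :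
    ∀ g ∈ T.fix, g ≠ 1 → ∃ u ∈ T.fix, ∃ v ∈ T.fix, g = u * (a * z) * u⁻¹ * (v * (a * z) * v⁻¹) := by
  intro g hg h1
  obtain ⟨y1, hy1, hP⟩ := not_P hE hc hS hh hZ hij hg h1
  obtain ⟨n, hn, w, hn', hw, hw1, m1, hm1, k1, hk1, y2, hy2, e2⟩ := bruhat_P hE
    (Subgroup.mul_mem _ (Subgroup.mul_mem _ hy1 hg) (Subgroup.inv_mem _ hy1)) hP
  obtain ⟨m, hm', hD⟩ := dec1 hE hH hn' hn fun h => hw1 (eq_one_of hcv (Tw.NW_W1 hn' hn) h hw)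
  obtain ⟨y3, hy3, v, hv, u, hu, e3⟩ := hD.conj hm1 hk1
  obtain ⟨p, hp1, q, hq1, e⟩ := hsq _ (mul_mem hm1 hm')
  obtain ⟨y, hy, ey⟩ := hn2
  have cM : ∀ p ∈ MM T j, p * a * p⁻¹ ∈ MM T j := fun p h => mul_mem (mul_mem h ha) (inv_mem h)
  have pw : ∀ p ∈ MM T j, ∀ t, (t = z ∨ t = z⁻¹) → (p * a * p⁻¹ * t) ^ d = t ^ d := fun p h t ht => by
    have : Commute (p * a * p⁻¹) t := by
      rcases ht with rfl | rfl
      exacts [(hzM _ (cM p h)).symm, (hzM _ (cM p h)).symm.inv_right]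
    rw [this.mul_pow, conj_pow, had]; simp
  have lv : ∀ p ∈ MM T j, ∀ t ∈ S.H ⊓ T.fix, p * a * p⁻¹ * t ∈ Lev S (T.orb j) ∧ p * a * p⁻¹ * t ∈ T.fix :=
    fun p h t ht => ⟨mul_mem (MM_lev (cM p h)) (Subgroup.mem_sup_left ht.1), mul_mem (MM_fix (cM p h)) ht.2⟩
  obtain ⟨c, hc', ec⟩ := conj_of_fpf (Rm S (T.orb j) ⊓ T.fix) (x := p * a * p⁻¹ * z)
    (fun _ h => cjm (lv p hp1 z hz).1 (lv p hp1 z hz).2 h)
    (fun v h e => hm v h.1 (by rw [← pw p hp1 z (Or.inl rfl)]; exact (Commute.pow_left e d).eq)) hv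
  obtain ⟨f, hf, ef⟩ := conj_of_fpf' (Rp S (T.orb j) ⊓ T.fix) (x := q * a * q⁻¹ * z⁻¹)
    (fun _ h => cjp (lv q hq1 _ (inv_mem hz)).1 (lv q hq1 _ (inv_mem hz)).2 h)
    (fun v h e => hp v h.1 (by
      have := Commute.pow_left e d
      rw [pw q hq1 _ (Or.inr rfl), inv_pow] at this
      exact (Commute.inv_left_iff.1 this).eq)) hu
  have hy0 := Subgroup.inv_mem _ (Subgroup.mul_mem _ (Subgroup.mul_mem _ hy3 hy2) hy1)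
  have ea : p * a * p⁻¹ * z = p * (a * z) * p⁻¹ := by rw [mul_assoc _ p⁻¹, ← (hzM _ (inv_mem hp1)).eq]; group
  have eb : q * a * q⁻¹ * z⁻¹ = q * y⁻¹ * n0 * (a * z) * (q * y⁻¹ * n0)⁻¹ := by
    have e5 := (hzM _ (mul_mem hy (inv_mem hq1))).inv_left.eq
    calc q * a * q⁻¹ * z⁻¹ = q * y⁻¹ * (y * a * y⁻¹) * (y * q⁻¹ * z⁻¹) := by group
      _ = q * y⁻¹ * (n0 * a * n0⁻¹) * (n0 * z * n0⁻¹) * (y * q⁻¹) := by rw [← e5, ey, hn1]; group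
      _ = _ := by group
  refine ⟨_, Subgroup.mul_mem _ (Subgroup.mul_mem _ hy0 (Subgroup.inv_mem _ hc'.2)) (MM_fix hp1), _,
    Subgroup.mul_mem _ (Subgroup.mul_mem _ hy0 (Subgroup.inv_mem _ hf.2))
      (mul_mem (mul_mem (MM_fix hq1) (inv_mem (MM_fix hy))) hn0), ?_⟩
  have e4 : v * (m1 * m) * u = v * (p * a * p⁻¹ * z) * (q * a * q⁻¹ * z⁻¹ * u) := by
    have e5 := (hzM _ (cM q hq1)).eq
    rw [e]
    calc _ = v * (p * a * p⁻¹) * (z * (q * a * q⁻¹)) * z⁻¹ * u := by rw [e5]; group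
      _ = _ := by group
  calc g = (y3 * y2 * y1)⁻¹ * (y3 * (y2 * (y1 * g * y1⁻¹) * y2⁻¹) * y3⁻¹) * (y3 * y2 * y1) := by group
    _ = _ := by rw [e2, e3, e4, ec, ef, ea, eb]; group

end H20.TF
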