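import Cfsg.Agent.H20.TF.A1
import Cfsg.Agent.H14.F4M3
import Cfsg.Agent.H23.SzTrace

/-!
The large Ree groups: the square of a semisimple class covers all nonidentity elements.
-/

namespace H20.TF

open H14 H14.RootSys H14.PreSt H14.St H14.St.Tw H14.Good H14.F4 H27.GT Cfsg.Lie H11 H11.TM

set_option maxRecDepth 100000

section
open H23 H23.Sz

theorem sz5 (F : Type*) [Field F] [Tits F] [Finite F] [Big F] (G : Type*) [Group G] [Model F G]
    (h5 : 5 ∣ Nat.card F ^ 2 + 1) : ∃ a : G, orderOf a = 5 ∧ (∀ b, orderOf b = 5 → IsConj a b) ∧ ∀ m, InSq a m := by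
  have := finite_G F G
  have := Fact.mk Nat.prime_five
  have := Fact.mk Nat.prime_three
  obtain ⟨a, ha⟩ := exists_prime_orderOf_dvd_card' (G := G) 5 (card_G F G ▸ h5.mul_left _)
  have sq : ∀ g : G, tr F (g * g) = tr F g ^ 2 := fun g => by
    simp only [Sz.tr, map_mul, Matrix.trace, Matrix.diag, Matrix.mul_apply, Fin.sum_univ_four]
    grind
  have key : ∀ b : G, orderOf b = 5 → tr F b = 1 := fun b hb => by
    have h0 : tr F b ≠ 0 := tr_ne_zero (by rintro rfl; simp at hb) (hb ▸ by decide)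
    have h1 : b * b * (b * b) = b⁻¹ := by
      rw [eq_inv_iff_mul_eq_one, ← pow_orderOf_eq_one b, hb]; simp only [pow_succ, pow_zero, one_mul, mul_assoc]
    have h2 := sq (b * b)
    rw [h1, tr_inv, sq] at h2
    have h3 : Units.mk0 _ h0 ^ 3 = 1 := Units.ext (mul_left_cancel₀ h0 (by simp; linear_combination -h2))
    by_contra h4
    refine not_three_dvd_q1 (F := F) ?_
    rw [← Nat.card_units, ← orderOf_eq_prime h3 fun e => h4 (congrArg Units.val e)]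
    exact orderOf_dvd_natCard _
  have c : ∀ b, orderOf b = 5 → IsConj a b := fun b hb =>
    isConj_of_tr (F := F) (by rw [key a ha]; exact one_ne_zero) (by rw [key a ha, key b hb])
  refine ⟨a, ha, c, fun m => ?_⟩
  by_cases h : m = 1
  · exact ⟨a, a⁻¹, IsConj.refl a, c _ (by rwa [orderOf_inv]), by simp [h]⟩
  · exact inSq F (by omega) h

variable {K : Type*} [Field K] [CharP K 2] {φ : K →+* K} (h2 : ∀ t, φ (φ t) ^ 2 = t)

theorem sz_facts [Finite K] (hK : 2 < Nat.card K) (h5 : 5 ∣ Nat.card K ^ 2 + 1) :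
    ∃ a ∈ MM (T φ h2) 1, orderOf a = 5 ∧ (∀ b ∈ MM (T φ h2) 1, orderOf b = 5 → ∃ y ∈ MM (T φ h2) 1, b = y * a * y⁻¹) ∧
      ∀ m ∈ MM (T φ h2) 1, ∃ y ∈ MM (T φ h2) 1, ∃ y' ∈ MM (T φ h2) 1, m = y * a * y⁻¹ * (y' * a * y'⁻¹) := by
  let : Tits K := ⟨(frobenius K 2).comp φ, fun x => by simp [frobenius_def, h2]⟩
  have := big_of_card hK
  have hθ : ∀ t : K, θ (φ t) = t := h2
  have := goodB2.nontrivial_rank
  let S := (spB2.st K).restrict _ le_rfl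
  obtain ⟨ψ, hψ⟩ := exists_section (S := S) goodB2.conn (restrict_sep (spB2.model K fun r =>
    have ⟨a, b, h⟩ := (by change ∀ r, ∃ a b, sd4 _ _ ^ 2 = 1; decide +kernel : ∀ r, ∃ a b, spB2.E1 r a b ^ 2 = 1) r
    ⟨a, b, fun e => by simpa [e] using congrArg (Int.cast (R := K)) h⟩).sep _ _) (restrict_top _)
    ((injective_iff_map_eq_one _).2 fun c hc => (mpow_ker_eq_bot Kˣ
      (A := Matrix.of fun i (j : Fin chevB2.rank) => spB2.wt (j.castLE (by decide)) i)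
      (B := lmat _ [[1, 1], [0, 1]]) (by decide +kernel)).le (funext fun j => (spB2.tor_eq_one K).1 (by
        rw [← (hmul_of_finite S).map (spB2.hmul K) (St.isHom_restrict _ _), hc, map_one]) (j.castLE (by decide))))
    (goodB2.fold (fw := fun r => [([17, 19, 20, 22, 25, 27, 28, 30].getD r 0, 1)])
      (fun lt => goodF4.colOk (goodF4.SG K).toPreSt lt Int.cast_zero) (by decide +kernel))
  have key : ∀ (L : List (Fin chevB2.nroots × K)) (γ : SzG K), ρ K γ = ((spB2.st K).wd L).1 →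
      ∃ δ : (spB2.st K).U Set.univ, δ.1 = γ.1 ∧ ψ δ = (goodF4.SG K).wd (L.map fun p =>
      ([17, 19, 20, 22, 25, 27, 28, 30].getD p.1 0, p.2)) := fun L γ hL => by
    have e : ∀ L, (S.wd L).1 = (spB2.st K).wd L := fun L => by
      induction L with
      | nil => rfl
      | cons p L ih => exact congrArg (_ * ·) ih
    refine ⟨S.wd L, (e L).trans (Units.ext hL.symm), ?_⟩
    clear hL
    induction L with
    | nil => exact map_one ψ
    | cons p L ih =>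
      rw [wd_cons, map_mul, ih, hψ]
      obtain ⟨r, t⟩ := p
      fin_cases r <;> simp [Good.fold, fx', xn] <;> rfl
  have hn : ∀ t u : K, nf (φ t) (φ t * t + u) = φ t * (φ t * t + u) + φ u ^ 2 := fun t u => by
    rw [nf, map_add, map_mul, hθ, show θ t = φ t ^ 2 from rfl, show θ u = φ u ^ 2 from rfl]
    linear_combination t * φ t ^ 2 * two (F := K)
  have k1 : ∀ t u, ∃ δ : (spB2.st K).U Set.univ, δ.1 = (Sz.T (φ t) (φ t * t + u) : SzG K).1 ∧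
      ψ δ = (goodF4.SG K).wd [(27, φ t), (25, t), (28, φ t * t + u), (30, φ u ^ 2)] := fun t u => by
    refine key [(5, φ t), (4, t), (6, φ t * t + u), (7, φ u ^ 2)] _ ?_
    simp only [ρ_T, wd_cons, wd_nil, mul_one, Units.val_mul, Rep.coe_st_x, sp_X, Tm, hn, hθ]
    simp [show chevB2.nroots = 8 from rfl, CharTwo.neg_eq, add_comm]
  have k2 : ∀ t u, ∃ δ : (spB2.st K).U Set.univ, δ.1 = (W K * Sz.T (φ t) (φ t * t + u) * W K : SzG K).1 ∧
      ψ δ = (goodF4.SG K).wd [(20, φ t), (22, t), (19, φ t * t + u), (17, φ u ^ 2)] := fun t u => by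
    refine key [(2, φ t), (3, t), (1, φ t * t + u), (0, φ u ^ 2)] _ ?_
    simp only [map_mul, ρ_T, ρ_W, J_eq, wd_cons, wd_nil, mul_one, Units.val_mul, Rep.coe_st_x, sp_X, Tm, hn, hθ]
    simp [show chevB2.nroots = 8 from rfl, CharTwo.neg_eq, add_comm]
  have hN : (((MM (T φ h2) 1).comap ψ).map (Subgroup.subtype _)).subgroupOf (SzG K) = ⊤ := by
    refine eq_top_of_Q_le (F := K) (g := W K * Sz.T (φ 0) (φ 0 * 0 + 1) * W K) (fun g hg => ?_) ?_ fun h => ?_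
    · obtain ⟨a, b, rfl⟩ := mem_Q.1 hg
      obtain ⟨t, rfl⟩ := tits_surj h2 a
      obtain ⟨δ, e1, e2⟩ := k1 t (b - φ t * t)
      rw [add_sub_cancel] at e1
      exact ⟨δ, Subgroup.mem_sup_left (p1.2 ⟨_, _, e2⟩), e1⟩
    · obtain ⟨δ, e1, e2⟩ := k2 0 1
      exact ⟨δ, Subgroup.mem_sup_right (m1.2 ⟨_, _, e2⟩), e1⟩
    · refine W_notMem_B (G := SzG K) (mem_B_of_conj (F := K) (T_mem_Q (φ 0) (φ 0 * 0 + 1)) (by simp [T_eq_one]) (by rwa [W_inv]))
  have hN' : ∀ γ : SzG K, ∃ δ : (spB2.st K).U Set.univ, ψ δ ∈ MM (T φ h2) 1 ∧ δ.1 = γ.1 := fun γ =>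
    hN.ge (Subgroup.mem_top γ)
  have hle : SzG K ≤ (spB2.st K).U Set.univ := fun g hg => by
    obtain ⟨δ, -, e⟩ := hN' ⟨g, hg⟩
    exact (show δ.1 = g from e) ▸ δ.2
  let f := ψ.comp (Subgroup.inclusion hle)
  have hf : ∀ {δ : (spB2.st K).U Set.univ} {γ : SzG K}, δ.1 = γ.1 → f γ = ψ δ := fun e =>
    congrArg ψ (Subtype.ext e.symm)
  have hr : f.range = MM (T φ h2) 1 := by
    refine le_antisymm ?_ (sup_le (fun g hg => ?_) fun g hg => ?_)
    · rintro _ ⟨γ, rfl⟩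
      obtain ⟨δ, h, e⟩ := hN' γ
      rwa [hf e]
    · obtain ⟨t, u, rfl⟩ := p1.1 hg
      obtain ⟨δ, e1, e2⟩ := k1 t u
      exact ⟨_, (hf e1).trans e2⟩
    · obtain ⟨t, u, rfl⟩ := m1.1 hg
      obtain ⟨δ, e1, e2⟩ := k2 t u
      exact ⟨_, (hf e1).trans e2⟩
  have hi : Function.Injective f := by
    have := isSimpleGroup K (SzG K)
    rcases f.normal_ker.eq_bot_or_eq_top with h | h
    · exact (MonoidHom.ker_eq_bot_iff f).1 h
    · obtain ⟨v, hv, h1⟩ := ex (φ := φ) (h2 := h2) 1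
      obtain ⟨γ, rfl⟩ := hr.ge (Subgroup.mem_sup_right hv)
      exact absurd (h.ge (Subgroup.mem_top γ)) h1
  obtain ⟨a, ha, c, s⟩ := sz5 K (SzG K) h5
  rw [← hr]
  refine ⟨f a, ⟨a, rfl⟩, by rwa [orderOf_injective f hi], ?_, ?_⟩
  · rintro _ ⟨b, rfl⟩ hb
    obtain ⟨y, rfl⟩ := isConj_iff.1 (c b (by rwa [orderOf_injective f hi] at hb))
    exact ⟨_, ⟨y, rfl⟩, by simp⟩
  · rintro _ ⟨m, rfl⟩
    obtain ⟨x, y, hx, hy, rfl⟩ := s m
    obtain ⟨u, rfl⟩ := isConj_iff.1 hx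
    obtain ⟨v, rfl⟩ := isConj_iff.1 hy
    exact ⟨_, ⟨u, rfl⟩, _, ⟨v, rfl⟩, by simp⟩

end

variable {K : Type*} [Field K] [CharP K 2] {φ : K →+* K} (h2 : ∀ t, φ (φ t) ^ 2 = t)

theorem H_dec : ∀ k ∈ (goodF4.SG K).H ⊓ (T φ h2).fix, ∃ a b, Inv (T φ h2) 0 a ∧ Inv (T φ h2) 1 b ∧
    k = a * a * (b * b) := fun k hk => by
  obtain ⟨c, hc, rfl⟩ := H_fix.1.le hk
  rw [SetLike.mem_coe, mem_tor (h2 := h2)] at hc
  let s := Units.map φ.toMonoidHom
  have o := (map_one φ).symm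
  have hw : ∀ i, ∀ j ∈ (T φ h2).orb i, goodF4.R.w0 ((T φ h2).orb i) (goodF4.R.simple j) =
      goodF4.R.neg (goodF4.R.simple j) := fun i => by
    simp only [w0_orb, wprod_apply]
    revert i; change ∀ i j, okgrF4.pi.SameCycle i j → _; decide +kernel
  refine ⟨_, _, inv_tor (goodF4.SG_hmul K) (goodF4.center_eq_bot K) (hw 0)
    (c := vec 1 [s (s (s (c 3))), 1, 1, s (s (c 3))]) (fun j hj => ?_)
    (Tw.tor_mem _ tw_ψ ((mem_tor (h2 := h2)).2 ⟨rfl, o⟩)).2, inv_tor (goodF4.SG_hmul K) (goodF4.center_eq_bot K) (hw 1)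
    (c := vec 1 [1, s (s (s (c 2))), s (s (c 2)), 1]) (fun j hj => ?_)
    (Tw.tor_mem _ tw_ψ ((mem_tor (h2 := h2)).2 ⟨o, rfl⟩)).2, ?_⟩
  · rcases (by decide +kernel : ∀ j, ¬ okgrF4.pi.SameCycle 0 j → j = 1 ∨ j = 2) j hj with rfl | rfl <;> rfl
  · rcases (by decide +kernel : ∀ j, ¬ okgrF4.pi.SameCycle 1 j → j = 0 ∨ j = 3) j hj with rfl | rfl <;> rfl
  simp only [← map_mul]
  refine congrArg _ (funext fun j : Fin 4 => Units.ext ?_)
  fin_cases j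
  · change (c 0 : K) = φ (φ (φ (c 3))) * φ (φ (φ (c 3))) * (1 * 1)
    rw [← sq, h2, hc.1]; ring
  · change (c 1 : K) = 1 * 1 * (φ (φ (φ (c 2))) * φ (φ (φ (c 2))))
    rw [← sq (φ _), h2, hc.2]; ring
  · change (c 2 : K) = 1 * 1 * (φ (φ (c 2)) * φ (φ (c 2)))
    rw [← sq (φ _), h2]; ring
  · change (c 3 : K) = φ (φ (c 3)) * φ (φ (c 3)) * (1 * 1)
    rw [← sq, h2]; ring

/-- exponents of the central torus of the Levi subgroup -/
noncomputable def ee (r : Fin chevF4.nroots) : ℤ × ℤ :=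
  (2 * goodF4.R.wt r 0 + goodF4.R.wt r 1 - 2 * goodF4.R.wt r 3, -goodF4.R.wt r 0 + goodF4.R.wt r 2 + 2 * goodF4.R.wt r 3)

theorem ee_J : ∀ r, goodF4.R.InJ (orb 1) r → ee r = (0, 0) := by unfold RootSys.InJ; decide +kernel

theorem ee_N : ∀ r, ¬ goodF4.R.InJ (orb 1) r → ((ee r).1 ^ 2 - 2 * (ee r).2 ^ 2) ∣ 4 := by
  unfold RootSys.InJ; decide +kernel

theorem exists_z (t : Kˣ) : ∃ z ∈ (goodF4.SG K).H ⊓ (T φ h2).fix,
    Acts (goodF4.SG K) z fun r => φ t ^ (ee r).1 * t ^ (ee r).2 := by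
  let s := Units.map φ.toMonoidHom t
  refine ⟨_, Tw.tor_mem (goodF4.SG_hmul K) tw_ψ (c := vec 1 [s ^ 2 / t, s, t, t ^ 2 / s ^ 2])
    ((mem_tor (h2 := h2)).2 ⟨?_, rfl⟩), fun r u => ?_⟩
  · change ((s ^ 2 / t : Kˣ) : K) = φ (t ^ 2 / s ^ 2 : Kˣ)
    simp [s, h2]
  · rw [HMul.tor_mul_x]
    congr 3
    have : ∏ i, vec 1 [s ^ 2 / t, s, t, t ^ 2 / s ^ 2] i ^ goodF4.R.wt r i = s ^ (ee r).1 * t ^ (ee r).2 := by
      change ∏ i : Fin 4, _ = _
      rw [Fin.prod_univ_four]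
      change (s ^ 2 / t) ^ goodF4.R.wt r 0 * s ^ goodF4.R.wt r 1 * t ^ goodF4.R.wt r 2 *
        (t ^ 2 / s ^ 2) ^ goodF4.R.wt r 3 = _
      simp only [ee, zpow_mul, zpow_ofNat, zpow_add, zpow_sub, zpow_neg, div_eq_mul_inv, mul_zpow, inv_zpow]
      ac_rfl
    rw [this]; simp [s]

include h2 in
theorem ne_one {t : K} (h0 : t ≠ 0) (h1 : t ≠ 1) {a b : ℤ} (h : (a ^ 2 - 2 * b ^ 2) ∣ 4) : φ t ^ a * t ^ b ≠ 1 := fun e => by
  have s0 : φ t ≠ 0 := by simpa using h0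
  have e1 : t ^ a * φ t ^ (2 * b) = 1 := by
    have := congrArg (fun x => φ x ^ (2 : ℤ)) e
    simp only [map_mul, map_zpow₀, map_one, one_zpow, mul_zpow, ← zpow_mul, mul_comm _ (2 : ℤ)] at this
    rwa [zpow_mul (φ (φ t)), zpow_ofNat, h2] at this
  have e2 : t ^ (a ^ 2 - 2 * b ^ 2) = 1 := by
    have a1 := congrArg (· ^ a) e1
    have a2 := congrArg (· ^ (2 * b)) e
    simp only [mul_zpow, ← zpow_mul, one_zpow] at a1 a2
    rw [zpow_sub₀ h0, div_eq_one_iff_eq (zpow_ne_zero _ h0)]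
    refine mul_left_cancel₀ (zpow_ne_zero (2 * b * a) s0) ?_
    rw [mul_comm, sq, a1, mul_comm (2 * b), ← a2]; congr 2; ring
  obtain ⟨c, hc⟩ := h
  have e3 : t ^ 4 = 1 := by rw [← zpow_ofNat, hc, zpow_mul, e2, one_zpow]
  have e4 : (t - 1) ^ 2 ^ 2 = 0 := by rw [sub_pow_char_pow, one_pow]; exact sub_eq_zero.2 e3
  exact h1 (sub_eq_zero.1 (pow_eq_zero_iff (by norm_num) |>.1 e4))

theorem main_F4 [Finite K] (hK : 6 < Nat.card K) (h5 : 5 ∣ Nat.card K ^ 2 + 1) :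
    ∃ x ∈ (T φ h2).fix, ¬ 2 ∣ orderOf x ∧ ∀ g ∈ (T φ h2).fix, g ≠ 1 → ∃ u ∈ (T φ h2).fix,
      ∃ v ∈ (T φ h2).fix, g = u * x * u⁻¹ * (v * x * v⁻¹) := by
  have := Fintype.ofFinite K
  have := finite_of_st (T φ h2).sep (T φ h2).top
  obtain ⟨t, ht⟩ := IsCyclic.exists_ofOrder_eq_natCard (α := Kˣ)
  have t5 : (t : K) ^ 5 ≠ 1 := fun e => by
    have := orderOf_le_of_pow_eq_one (x := t) (n := 5) (by decide) (Units.ext (by simpa using e))
    rw [ht, Nat.card_units] at this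
    omega
  obtain ⟨z, hz, hA⟩ := exists_z h2 t
  obtain ⟨a, ha, ho, hc, hs⟩ := sz_facts h2 (by omega) h5
  obtain ⟨n, hn, hn'⟩ := (ex (φ := φ) (h2 := h2)).exists_rep (w0_univ_mem (T := T φ h2))
  have hzM : ∀ m ∈ MM (T φ h2) 1, Commute z m := fun m hm => by
    have h1 : MM (T φ h2) 1 ≤ (goodF4.SG K).U {r | goodF4.R.InJ (orb 1) r} :=
      sup_le (fun _ h => U_mono (fun _ h => h.2) h.1) fun _ h => U_mono (fun _ h => h.2) h.1
    refine (Subgroup.mem_centralizer_singleton_iff.1 ((U_le (M := Subgroup.centralizer {z})).2 (fun r hr u => ?_)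
      (h1 hm))).symm
    rw [Subgroup.mem_centralizer_singleton_iff, hA]; simp [ee_J r hr]
  have hne : ∀ r, ¬ goodF4.R.InJ (orb 1) r → ((fun r => φ t ^ (ee r).1 * t ^ (ee r).2) ^ 5) r ≠ 1 := fun r hr => by
    have := ne_one h2 (pow_ne_zero 5 t.ne_zero) t5 (ee_N r hr)
    rwa [map_pow, ← zpow_natCast, ← zpow_natCast, ← zpow_mul, ← zpow_mul, mul_comm ((5 : ℕ) : ℤ),
      mul_comm ((5 : ℕ) : ℤ), zpow_mul, zpow_mul, ← mul_zpow, zpow_natCast] at this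
  have a5 : a ^ 5 = 1 := ho ▸ pow_orderOf_eq_one a
  refine ⟨a * z, mul_mem (MM_fix ha) hz.2, fun h => ?_, main ex goodF4.conn supp (goodF4.SG_hmul K)
    (goodF4.center_eq_bot K) (i := 0) (j := 1) (by change ¬ okgrF4.pi.SameCycle _ _; decide +kernel)
    (by change ∀ k, okgrF4.pi.SameCycle _ _ ∨ okgrF4.pi.SameCycle _ _; decide +kernel) (H_dec h2) hz hzM hn
    ((goodF4.SG_hmul K).conj_neg (T φ h2).sep (T φ h2).top (goodF4.center_eq_bot K) hn' F4.w0_neg hz.1) ha a5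
    (fun u hu => (hA.pow 5).fpf (T φ h2).sep (Tw.closed_rad _) (fun _ h => htf_pos h.1) (fun r h => hne r h.2) hu)
    (fun u hu => (hA.pow 5).fpf (T φ h2).sep (closed_nrad _) (fun _ h => htf_neg h.1) (fun r h => hne r h.2) hu)
    (hc _ (conj_MM (fun u hu => Subgroup.mem_sup_right ⟨NW.conj_mem_U hn' (fun r hr => ?_) hu.1,
      Subgroup.mul_mem _ (Subgroup.mul_mem _ hn hu.2) (Subgroup.inv_mem _ hn)⟩) (fun u hu => Subgroup.mem_sup_left ⟨NW.conj_mem_U hn' (fun r hr => ?_) hu.1,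
      Subgroup.mul_mem _ (Subgroup.mul_mem _ hn hu.2) (Subgroup.inv_mem _ hn)⟩) ha) (ho ▸ (MulAut.conj n).orderOf_eq a)) hs⟩
  · have := Fact.mk Nat.prime_two
    refine hA.not_dvd (T φ h2).sep (T φ h2).top (goodF4.center_eq_bot K) 2 (orderOf_pos z) ?_
    have h1 := h.trans (hzM a ha).symm.orderOf_mul_dvd_mul_orderOf
    rw [ho] at h1
    omega
  · simpa only [Set.mem_ofPred_eq, F4.w0_neg, pos_neg_iff, inJ_neg, not_not] using hr
  · simpa only [Set.mem_ofPred_eq, F4.w0_neg, pos_neg_iff, inJ_neg] using hr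

theorem ree {M : Type*} [Group M] (hM : Iso2F4 M) :
    ∃ x : M, Odd (orderOf x) ∧ ∀ a : M, a ≠ 1 → ∃ u v : M, a = (u * x * u⁻¹) * (v * x * v⁻¹) := by
  obtain ⟨K, _, _, m, hm, hK, ⟨e⟩⟩ := hM
  obtain ⟨_, φ, h2, hφ⟩ := exists_tits Nat.prime_two hK
  have hE := (isTw (h2 := h2) hφ).emb
  have h8 : 2 ^ 3 ≤ 2 ^ (2 * m + 1) := Nat.pow_le_pow_right (by decide) (by omega)
  obtain ⟨x, h1, h3⟩ := transfer (hE.inj.comp e.injective : Function.Injective (MonoidHom.comp _ e.toMonoidHom))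
    (by rw [MonoidHom.range_comp, MonoidHom.range_eq_top.2 e.surjective, ← MonoidHom.range_eq_map, hE.range])
    (main_F4 h2 (by rw [Nat.card_eq_fintype_card, hK]; omega) (by
      rw [Nat.card_eq_fintype_card, hK, ← pow_mul, mul_comm _ 2, pow_mul]
      simpa using Odd.nat_add_dvd_pow_add_pow 4 1 (n := 2 * m + 1) ⟨m, rfl⟩))
  exact ⟨x, Nat.not_even_iff_odd.1 fun h => h1 h.two_dvd, h3⟩

end H20.TF
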