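import Cfsg.Agent.H15.M.Tits
import Mathlib.GroupTheory.Sylow

/-!
Words for coset representatives and checks for products of two conjugates in the permutation model.
-/

namespace H20.TF

open H16

theorem comm_of_pow {G : Type*} [Group G] {p : ℕ} (hp : p.Prime) {y c : G} (hy : orderOf y = p) {k : ℕ}
    (hk : y ^ k ≠ 1) (h : Commute c (y ^ k)) : Commute c y := by
  obtain ⟨m, hm⟩ := exists_pow_eq_self_of_coprime (x := y) (n := k) (by
    rw [hy]; exact ((Nat.Prime.coprime_iff_not_dvd hp).2 fun e => hk (orderOf_dvd_iff_pow_eq_one.1 (hy ▸ e))).symm)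
  exact hm ▸ h.pow_right m

theorem conj_cent {G : Type*} [Group G] [Finite G] {p : ℕ} (hp : p.Prime) {y : G} (hy : orderOf y = p)
    (h : ∀ c, Commute c y → c ^ p = 1 → ∃ (k : ℕ) (t : G), c = t * y ^ k * t⁻¹) {a : G} (ha : p ∣ orderOf a) :
    ∃ t, Commute (t * a * t⁻¹) y := by
  have := Fact.mk hp
  have pg : ∀ b : G, orderOf b = p → IsPGroup p (Subgroup.zpowers b) := fun b hb =>
    IsPGroup.of_card (n := 1) (by rw [Nat.card_zpowers, hb, pow_one])
  obtain ⟨S, hS⟩ := (pg y hy).exists_le_sylow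
  have hyS : y ∈ (S : Subgroup G) := hS (Subgroup.mem_zpowers y)
  have y1 : y ≠ 1 := by rintro rfl; exact hp.one_lt.ne (by simpa using hy)
  have : Nontrivial (S : Subgroup G) := ⟨⟨⟨y, hyS⟩, 1, fun e => y1 (congrArg Subtype.val e)⟩⟩
  have := S.isPGroup'.center_nontrivial
  obtain ⟨n, hn, e⟩ := (S.isPGroup'.to_subgroup (Subgroup.center _)).nontrivial_iff_card.1 this
  obtain ⟨z, hz⟩ := exists_prime_orderOf_dvd_card' (G := Subgroup.center (S : Subgroup G)) p
    (e ▸ dvd_pow_self p hn.ne')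
  rw [← Subgroup.orderOf_coe, ← Subgroup.orderOf_coe] at hz
  have hzc : ∀ s ∈ (S : Subgroup G), Commute s (z.1 : G) := fun s hs =>
    congrArg Subtype.val (Subgroup.mem_center_iff.1 z.2 ⟨s, hs⟩)
  obtain ⟨k, t, e1⟩ := h _ (hzc y hyS).symm (orderOf_dvd_iff_pow_eq_one.1 hz.dvd)
  have hk : y ^ k ≠ 1 := fun e => hp.one_lt.ne (by rw [← hz, e1, e]; simp)
  have hb : orderOf (a ^ (orderOf a / p)) = p := orderOf_pow_orderOf_div (orderOf_pos a).ne' ha
  set b := a ^ (orderOf a / p)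
  obtain ⟨Q, hQ⟩ := (pg b hb).exists_le_sylow
  obtain ⟨s, rfl⟩ := MulAction.exists_smul_eq G S Q
  have h1 : s⁻¹ * b * s ∈ (S : Subgroup G) := by
    have := hQ (Subgroup.mem_zpowers b)
    rw [Sylow.coe_subgroup_smul, Subgroup.mem_pointwise_smul_iff_inv_smul_mem] at this
    simpa using this
  have h2 : Commute (t⁻¹ * (s⁻¹ * b * s) * t) (y ^ k) := by
    have := (hzc _ h1).eq
    rw [e1] at this
    calc _ = t⁻¹ * (s⁻¹ * b * s * (t * y ^ k * t⁻¹)) * t := by group
      _ = _ := by rw [this]; group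
  obtain ⟨j, r, e2⟩ := h _ (comm_of_pow hp hy hk h2) (by
    rw [show t⁻¹ * (s⁻¹ * b * s) * t = (s * t)⁻¹ * b * (s * t)⁻¹⁻¹ by group, conj_pow, ← hb, pow_orderOf_eq_one]; simp)
  have e3 : y ^ j = (s * t * r)⁻¹ * b * (s * t * r)⁻¹⁻¹ := by
    calc y ^ j = r⁻¹ * (r * y ^ j * r⁻¹) * r := by group
      _ = _ := by rw [← e2]; group
  refine ⟨(s * t * r)⁻¹, comm_of_pow hp hy (k := j) (fun e => hp.one_lt.ne ?_) ?_⟩
  · rw [e, eq_comm, mul_inv_eq_one, inv_mul_eq_iff_eq_mul, mul_inv_cancel] at e3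
    rw [← hb, e3, orderOf_one]
  · rw [e3, ← conj_pow]; exact (Commute.refl _).pow_right _

/-- the word of a coset representative, passed to a continuation -/
noncomputable def wk (D : ℕ → ℕ) (K n : ℕ) : ℕ → List ℕ → (List ℕ → ℕ) → ℕ :=
  Nat.rec (motive := fun _ => ℕ → List ℕ → (List ℕ → ℕ) → ℕ) (fun _ _ _ => nat_lit 1)
    (fun _ ih v acc f => Nat.rec (motive := fun _ => ℕ) (f acc) (fun v' _ => force (D (Nat.succ v')) fun d =>
      force (Nat.mod d K) fun k => force (Nat.div d K) fun u => Nat.add (Nat.sub u v') (ih u (k :: acc) f)) v) n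

theorem wk_spec {G : Type*} [Group G] (g : ℕ → G) {D : ℕ → ℕ} {K n v : ℕ} {acc : List ℕ} {f : List ℕ → ℕ}
    (h : wk D K n v acc f = 0) : ∃ W, evA g W = tw g D K v ∧ f (W ++ acc) = 0 := by
  induction n generalizing v acc with
  | zero => exact absurd h (by simp [wk])
  | succ n ih =>
    cases v with
    | zero => exact ⟨[], (tw_zero g D K).symm, h⟩
    | succ v =>
      have h1 : force (D (v + 1)) (fun d => force (d % K) fun k => force (d / K) fun u =>
        (u - v) + wk D K n u (k :: acc) f) = 0 := h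
      simp only [force_eq] at h1
      obtain ⟨h2, h3⟩ := Nat.add_eq_zero_iff.1 h1
      obtain ⟨W, e, h4⟩ := ih h3
      refine ⟨W ++ [D (v + 1) % K], ?_, by simpa using h4⟩
      rw [evA_append, e, evA_cons, evA_nil, one_mul, eq_comm, tw, dif_pos (by omega)]

open H15.Tits

/-- the element of the point stabiliser with a given code -/
noncomputable def E1 (c : ℕ) : Equiv.Perm (Fin 1755) := tw g D1 5 (c / 16) * tw g D2 4 (c % 16)

theorem E1_mem (c : ℕ) : E1 c ∈ gen g 6 :=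
  mul_mem (gen_mono g (by decide) (tw_mem g D1 (by decide) _)) (gen_mono g (by decide) (tw_mem g D2 (by decide) _))

/-- its word -/
noncomputable def w12 (c : ℕ) (acc : List ℕ) (f : List ℕ → ℕ) : ℕ :=
  force (Nat.div c (nat_lit 16)) fun v => force (Nat.mod c (nat_lit 16)) fun u =>
    wk D1 (nat_lit 5) (nat_lit 11) v acc fun A => wk D2 (nat_lit 4) (nat_lit 5) u A f

theorem w12_spec {c : ℕ} {acc : List ℕ} {f : List ℕ → ℕ} (h : w12 c acc f = 0) :
    ∃ W, evA g W = E1 c ∧ f (W ++ acc) = 0 := by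
  simp only [w12, force_eq] at h
  obtain ⟨W1, e1, h1⟩ := wk_spec g h
  obtain ⟨W2, e2, h2⟩ := wk_spec g h1
  exact ⟨W2 ++ W1, by rw [evA_append, e1, e2]; rfl, by rwa [List.append_assoc]⟩

/-- a word for an element of the whole group -/
noncomputable def wc (c : ℕ) (f : List ℕ → ℕ) : ℕ :=
  force (Nat.mod c (nat_lit 2048)) fun v => force (Nat.div c (nat_lit 2048)) fun u =>
    wk D0 (nat_lit 6) (nat_lit 13) v [] fun A => w12 u A f

theorem wc_spec {c : ℕ} {f : List ℕ → ℕ} (h : wc c f = 0) : ∃ W, f W = 0 := by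
  simp only [wc, force_eq] at h
  obtain ⟨W1, -, h1⟩ := wk_spec g h
  obtain ⟨W2, -, h2⟩ := w12_spec h1
  exact ⟨_, h2⟩

/-- the element of order thirteen -/
noncomputable def X : List ℕ := [nat_lit 2, nat_lit 4, nat_lit 5]

/-- products of two conjugates -/
def Good (a : Equiv.Perm (Fin 1755)) : Prop :=
  ∃ u ∈ gen g 6, ∃ v ∈ gen g 6, a = u * evA g X * u⁻¹ * (v * evA g X * v⁻¹)

theorem Good.conj {a t : Equiv.Perm (Fin 1755)} (h : Good a) (ht : t ∈ gen g 6) : Good (t * a * t⁻¹) := by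
  obtain ⟨u, hu, v, hv, rfl⟩ := h
  exact ⟨_, mul_mem ht hu, _, mul_mem ht hv, by group⟩

/-- check of a witness -/
noncomputable def gd (A : List ℕ) (e : ℕ) : ℕ :=
  wc (Nat.mod e (nat_lit 33554432)) fun U => wc (Nat.mod (Nat.div e (nat_lit 33554432)) (nat_lit 33554432)) fun V =>
    Nat.add (Nat.add (ltAll (nat_lit 6) U) (ltAll (nat_lit 6) V))
      (eqL P (nat_lit 6) B A (invW Rl V ++ (X ++ (V ++ (invW Rl U ++ (X ++ U))))))

theorem gd_sound {A : List ℕ} {e : ℕ} (h : gd A e = 0) : Good (evA g A) := by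
  obtain ⟨U, h1⟩ := wc_spec h
  obtain ⟨V, h2⟩ := wc_spec h1
  obtain ⟨h3, h4⟩ := Nat.add_eq_zero_iff.1 h2
  obtain ⟨h3, h5⟩ := Nat.add_eq_zero_iff.1 h3
  have := eqL_sound act Blt isBase h4
  simp only [evA_append, evA_invW rels ivc (ltAll_zero h3), evA_invW rels ivc (ltAll_zero h5)] at this
  exact ⟨_, evA_mem_gen g (ltAll_zero h3), _, evA_mem_gen g (ltAll_zero h5), by rw [this]; group⟩

/-- check for the class representatives of the point stabiliser -/
noncomputable def ent0 (Rc Wt : ℕ → ℕ) (i : ℕ) : ℕ := force (Rc i) fun r => w12 r [] fun R => force (Wt i) (gd R)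

/-- check for the elements of the point stabiliser -/
noncomputable def ent1 (Tb Rc : ℕ → ℕ) (n c : ℕ) : ℕ := force c fun c => force (Tb c) fun e =>
  force (Nat.mod e (nat_lit 16384)) fun t => force (Nat.div e (nat_lit 16384)) fun i => force (Rc i) fun r =>
    w12 c [] fun A => w12 t A fun TA => w12 t [] fun T => w12 r T fun RT =>
      Nat.add (Nat.sub (Nat.succ i) n) (eqL P (nat_lit 5) [nat_lit 2, nat_lit 77] TA RT)

theorem base1 : IsBase (gen g 5) (ptF 1755) [2, 77] := by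
  have := chain.tail.isBase (ptF_inj 1755)
  rwa [show chainBase [l1, l2] = [2, 77] from congrArg List.tail base_eq] at this

theorem good_stab {Tb Rc Wt : ℕ → ℕ} {n : ℕ} (h0 : ∀ i < n, ent0 Rc Wt i = 0) (h1 : ∀ c < 10240, ent1 Tb Rc n c = 0)
    {a : Equiv.Perm (Fin 1755)} (ha : a ∈ gen g 5) : Good a := by
  obtain ⟨v, hv, -, h2⟩ := chain.tail.orbit ha
  obtain ⟨u, hu, -, h3⟩ := chain.tail.tail.orbit h2
  have h4 : a = E1 (v * 16 + u) := by
    change u < 16 at hu
    change (tw g D2 4 u)⁻¹ * ((tw g D1 5 v)⁻¹ * a) ∈ gen g 0 at h3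
    rw [gen_zero, Subgroup.mem_bot, inv_mul_eq_one, eq_inv_mul_iff_mul_eq] at h3
    rw [E1, show (v * 16 + u) / 16 = v by omega, show (v * 16 + u) % 16 = u by omega, h3]
  have h5 := h1 (v * 16 + u) (by change v < 640 at hv; change u < 16 at hu; omega)
  simp only [ent1, force_eq] at h5
  obtain ⟨A, e1, h5⟩ := w12_spec h5
  obtain ⟨T, e2, h5⟩ := w12_spec h5
  obtain ⟨T', e3, h5⟩ := w12_spec h5
  obtain ⟨R, e4, h5⟩ := w12_spec h5
  obtain ⟨h6, h7⟩ := Nat.add_eq_zero_iff.1 h5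
  have e5 := eqL_sound (act.mono (by decide)) (by decide) base1 h7
  simp only [evA_append, evA_nil, one_mul, e1, e2, e3, e4] at e5
  have h8 := h0 _ (Nat.succ_le_iff.1 (Nat.sub_eq_zero_iff_le.1 h6))
  simp only [ent0, force_eq] at h8
  obtain ⟨R', e6, h8⟩ := w12_spec h8
  have h9 := gd_sound h8
  rw [List.append_nil, e6] at h9
  rw [h4, eq_mul_inv_of_mul_eq e5]
  exact h9.conj (E1_mem _)

/-- a power of a word -/
noncomputable def rep (W : List ℕ) (j : ℕ) : List ℕ := (List.replicate j W).flatten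

/-- check for the elements of a centraliser -/
noncomputable def entC (W : List ℕ) (Acc : List (List ℕ)) (p : ℕ) (Wt : ℕ → ℕ) (i : ℕ) : ℕ := force (Wt i) fun e =>
  (fun A => Nat.add (Nat.add (ltAll (nat_lit 6) A) (gd A e)) (Nat.rec (motive := fun _ => ℕ)
    (Nat.sub (nat_lit 1) (sumL (fun b => Nat.xor (itW P A p b) b) B))
    (fun k _ => wc (Nat.mod (Nat.shiftRight e (nat_lit 50)) (nat_lit 33554432)) fun T =>
      Nat.add (ltAll (nat_lit 6) T) (eqL P (nat_lit 6) B (T ++ A) (rep W k ++ T))) (Nat.shiftRight e (nat_lit 75))))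
    (nth [] Acc (Nat.div i p) ++ rep W (Nat.mod i p))

theorem sumL_of {α : Type} {f : α → ℕ} {L : List α} (h : ∀ x ∈ L, f x = 0) : sumL f L = 0 := by
  induction L with
  | nil => rfl
  | cons a L ih =>
    change f a + sumL f L = 0
    rw [h a List.mem_cons_self, ih fun x hx => h x (List.mem_cons_of_mem _ hx)]

theorem good_dvd {W : List ℕ} {Acc : List (List ℕ)} {p : ℕ} {Wt : ℕ → ℕ} (hp : p.Prime)
    (hc : ∀ {a}, a ∈ gen g 6 → a * evA g W = evA g W * a → ∃ j : ℤ, ∃ E ∈ Acc, a = evA g W ^ j * evA g E)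
    (h1 : powL P 6 B W p = 0 ∧ apW P W 2 ≠ 2) (h : ∀ i < p * Acc.length, entC W Acc p Wt i = 0)
    {a : gen g 6} (ha : p ∣ orderOf a) : Good a := by
  have := Fact.mk hp
  obtain ⟨hW, e0⟩ := powL_eq_one act Blt isBase h1.1
  have a0 := act.apW hW (show 2 < 1755 by decide)
  have hy : orderOf (⟨evA g W, evA_mem_gen g hW⟩ : gen g 6) = p := by
    rw [← Subgroup.orderOf_coe]
    refine orderOf_eq_prime e0 fun e => h1.2 (ptF_inj 1755 _ a0.1 _ (by decide) ?_)
    rw [← a0.2, show evA g W = 1 from e, one_smul]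
  have key : ∀ c : gen g 6, Commute c ⟨evA g W, evA_mem_gen g hW⟩ → Good c ∧ (c ^ p = 1 →
      ∃ (k : ℕ) (t : gen g 6), c = t * ⟨evA g W, evA_mem_gen g hW⟩ ^ k * t⁻¹) := fun c hcm => by
    obtain ⟨j, E, hE, e⟩ := hc c.2 (congrArg Subtype.val hcm.eq)
    obtain ⟨m, hm, rfl⟩ := List.getElem_of_mem hE
    have hp0 : (0 : ℤ) < p := by exact_mod_cast hp.pos
    obtain ⟨n, hn⟩ := Int.eq_ofNat_of_zero_le (Int.emod_nonneg j hp0.ne')
    have hn' : n < p := by have := Int.emod_lt_of_pos j hp0; omega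
    have e1 : evA g W ^ j = evA g W ^ n := by
      rw [← zpow_natCast, ← hn, ← Int.mul_ediv_add_emod j p, zpow_add, zpow_mul, zpow_natCast, e0, one_zpow, one_mul,
        Int.mul_ediv_add_emod]
    have h2 := h (p * m + n) (by nlinarith)
    have d1 : Nat.div (p * m + n) p = m := by
      change (p * m + n) / p = m
      rw [Nat.mul_add_div hp.pos, Nat.div_eq_of_lt hn', Nat.add_zero]
    have d2 : Nat.mod (p * m + n) p = n := by
      change (p * m + n) % p = n
      rw [Nat.mul_add_mod, Nat.mod_eq_of_lt hn']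
    have d3 : nth [] Acc m = Acc[m] := by rw [nth_eq_getD, List.getD_eq_getElem?_getD, List.getElem?_eq_getElem hm]; rfl
    rw [entC, force_eq, d1, d2, d3] at h2
    have e2 : evA g (Acc[m] ++ rep W n) = c := by rw [evA_append, rep, evA_replicate_flatten, e, e1]
    obtain ⟨h3, h4⟩ := Nat.add_eq_zero_iff.1 h2
    obtain ⟨h3, h5⟩ := Nat.add_eq_zero_iff.1 h3
    refine ⟨e2 ▸ gd_sound h5, fun e3 => ?_⟩
    generalize Nat.shiftRight (Wt (p * m + n)) (nat_lit 75) = k at h4
    cases k with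
    | zero =>
      have h6 : sumL (fun b => Nat.xor (itW P (Acc[m] ++ rep W n) p b) b) B = 0 := sumL_of fun b hb => by
        have a1 := act.itW (ltAll_zero h3) p (ltAll_zero Blt b hb)
        rw [e2, show (c : Equiv.Perm (Fin 1755)) ^ p = 1 from congrArg Subtype.val e3, one_smul] at a1
        rw [← ptF_inj 1755 _ (ltAll_zero Blt b hb) _ a1.1 a1.2]
        exact Nat.xor_self b
      have h7 : 1 - sumL (fun b => Nat.xor (itW P (Acc[m] ++ rep W n) p b) b) B = 0 := h4
      omega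
    | succ k =>
      obtain ⟨T, h6⟩ := wc_spec h4
      obtain ⟨h6, h7⟩ := Nat.add_eq_zero_iff.1 h6
      have e4 := eqL_sound act Blt isBase h7
      rw [evA_append, evA_append _ (rep W k), e2, rep, evA_replicate_flatten] at e4
      exact ⟨k, ⟨_, evA_mem_gen g (ltAll_zero h6)⟩, Subtype.ext (eq_mul_inv_of_mul_eq e4)⟩
  obtain ⟨t, ht⟩ := conj_cent hp hy (fun c h => (key c h).2) ha
  simpa [mul_assoc] using (key _ ht).1.conj (inv_mem t.2)

theorem good_two (h : ∀ a ∈ gen g 5, Good a) {a : gen g 6} {n : ℕ} (ha : orderOf a = 2 ^ n) : Good a := by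
  have := Fact.mk Nat.prime_two
  have h1 : IsPGroup 2 (Subgroup.zpowers (a : Equiv.Perm (Fin 1755))) :=
    IsPGroup.of_card (n := n) (by rw [Nat.card_zpowers, Subgroup.orderOf_coe, ha])
  obtain ⟨x, hx⟩ := h1.nonempty_fixed_point_of_prime_not_dvd_card (Fin 1755) (by simp)
  have h2 : (a : Equiv.Perm (Fin 1755)) • x = x := hx ⟨a, Subgroup.mem_zpowers _⟩
  have h3 := chain.2.2.2.1
  let f : Fin 1755 → Fin 1755 := fun v => ptF 1755 (Pt0 v)
  have hf : Function.Injective f := fun u v e => Fin.ext (by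
    rw [← (h3 u u.2).2.1, ← (h3 v v.2).2.1]
    exact congrArg Q0 (ptF_inj 1755 _ (h3 u u.2).1 _ (h3 v v.2).1 e))
  obtain ⟨v, rfl⟩ := Finite.surjective_of_injective hf x
  have h4 : tw g D0 6 v • ptF 1755 (Pt0 0) = f v := (h3 v v.2).2.2
  have h5 := tw_mem g D0 (show 0 < 6 by decide) v
  have h6 := h _ (chain.stab (ptF_inj 1755) (a := (tw g D0 6 v)⁻¹ * a * tw g D0 6 v)
    (mul_mem (mul_mem (inv_mem h5) a.2) h5) (by
      change _ • ptF 1755 (Pt0 0) = ptF 1755 (Pt0 0)
      rw [mul_smul, mul_smul, h4, h2, ← h4, inv_smul_smul]))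
  simpa [mul_assoc] using h6.conj h5

end H20.TF
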