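import Cfsg.Agent.H20.TF.B2
import Cfsg.Agent.H16.L.Tits

/-!
The Tits group: the square of a class of elements of order thirteen.
-/

namespace H20.TF

open H16 H15.Tits

theorem good_all (a : gen g 6) : Good a := by
  by_cases h3 : 3 ∣ orderOf a
  · exact good_dvd Nat.prime_three cene (by decide +kernel) (allZ_sound0 ke) h3
  by_cases h5 : 5 ∣ orderOf a
  · exact good_dvd Nat.prime_five H18.NCt.cend (by decide +kernel) (allZ_sound0 kd) h5
  by_cases h13 : 13 ∣ orderOf a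
  · exact good_dvd (by norm_num) H18.NCt.cena (by decide +kernel) (allZ_sound0 ka) h13
  have h1 : orderOf a ∣ 2 ^ 11 * 3 ^ 3 * 5 ^ 2 * 13 := (orderOf_dvd_natCard a).trans (by rw [card]; norm_num)
  have h2 := (((Nat.Prime.coprime_iff_not_dvd (by norm_num)).2 h13).symm).dvd_of_dvd_mul_right h1
  have h4 := (((Nat.Prime.coprime_iff_not_dvd Nat.prime_five).2 h5).symm.pow_right 2).dvd_of_dvd_mul_right h2
  have h6 := (((Nat.Prime.coprime_iff_not_dvd Nat.prime_three).2 h3).symm.pow_right 3).dvd_of_dvd_mul_right h4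
  obtain ⟨n, -, hn⟩ := (Nat.dvd_prime_pow Nat.prime_two).1 h6
  exact good_two (fun _ h => good_stab (allZ_sound0 k0) k1 h) hn

theorem tits_model : ∃ x : gen g 6, Odd (orderOf x) ∧ ∀ a : gen g 6, a ≠ 1 → ∃ u v : gen g 6,
    a = (u * x * u⁻¹) * (v * x * v⁻¹) := by
  obtain ⟨h1, h2⟩ := powL_eq_one act Blt isBase (W := X) nc2
  refine ⟨⟨evA g X, evA_mem_gen g h1⟩, Odd.of_dvd_nat (by decide : Odd 13) (orderOf_dvd_of_pow_eq_one
    (Subtype.ext h2)), fun a _ => ?_⟩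
  obtain ⟨u, hu, v, hv, e⟩ := good_all a
  exact ⟨⟨u, hu⟩, ⟨v, hv⟩, Subtype.ext e⟩

theorem congr {G H : Type*} [Group G] [Group H] (e : G ≃* H) (h : ∃ x : H, Odd (orderOf x) ∧ ∀ a : H, a ≠ 1 →
    ∃ u v : H, a = (u * x * u⁻¹) * (v * x * v⁻¹)) :
    ∃ x : G, Odd (orderOf x) ∧ ∀ a : G, a ≠ 1 → ∃ u v : G, a = (u * x * u⁻¹) * (v * x * v⁻¹) := by
  obtain ⟨x, h1, h2⟩ := h
  refine ⟨e.symm x, by rwa [MulEquiv.orderOf_eq], fun a ha => ?_⟩
  obtain ⟨u, v, h3⟩ := h2 (e a) (by simpa using ha)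
  exact ⟨e.symm u, e.symm v, e.injective (by simpa using h3)⟩

theorem tits {M : Type*} [Group M] (hM : Cfsg.Lie.IsoTits M) :
    ∃ x : M, Odd (orderOf x) ∧ ∀ a : M, a ≠ 1 → ∃ u v : M, a = (u * x * u⁻¹) * (v * x * v⁻¹) := by
  obtain ⟨e⟩ := hM
  exact congr (e.trans H16.LTits.equiv.symm) tits_model

end H20.TF
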